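import Cfsg.Agent.H830.B57.Defs

/-!
# S5717, task C1: systems of imprimitivity of a linear group (helper505)

`ρ : K →* GL(V)` irreducible, `S` a system of imprimitivity with a maximal number of members, `W₀ ∈ S`: `K` is
transitive on `S` and the group induced on `W₀` by its stabiliser is a primitive linear group.
-/

set_option autoImplicit false

open Subgroup

namespace Cfsg.Agent.H505.B57

open Cfsg Cfsg.Agent.H830.B57

section

variable {p : ℕ} [Fact p.Prime] {V : Type} [AddCommGroup V] [Module (ZMod p) V]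
variable {K : Type} [Group K] (ρ : K →* (V ≃ₗ[ZMod p] V))

/-- the translate of a submodule -/
def tr (k : K) : Submodule (ZMod p) V ≃o Submodule (ZMod p) V := Submodule.orderIsoMapComap (ρ k)

theorem tr_def (k : K) (W : Submodule (ZMod p) V) : tr ρ k W = W.map (ρ k : V →ₗ[ZMod p] V) := rfl

theorem mem_tr {k : K} {W : Submodule (ZMod p) V} {v : V} (h : v ∈ W) : ρ k v ∈ tr ρ k W :=
  Submodule.mem_map_of_mem (f := ((ρ k : V ≃ₗ[ZMod p] V) : V →ₗ[ZMod p] V)) h

theorem exists_of_mem_tr {k : K} {W : Submodule (ZMod p) V} {v : V} (h : v ∈ tr ρ k W) : ∃ w ∈ W, ρ k w = v := by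
  obtain ⟨w, hw, hv⟩ := Submodule.mem_map.1 h
  exact ⟨w, hw, hv⟩

theorem tr_le_iff {k : K} {W U : Submodule (ZMod p) V} : tr ρ k W ≤ U ↔ ∀ v ∈ W, ρ k v ∈ U := by
  constructor
  · intro h v hv
    exact h (mem_tr ρ hv)
  · intro h v hv
    obtain ⟨w, hw, rfl⟩ := exists_of_mem_tr ρ hv
    exact h w hw

theorem tr_one (W : Submodule (ZMod p) V) : tr ρ 1 W = W := by
  ext v
  constructor
  · intro h
    obtain ⟨w, hw, rfl⟩ := exists_of_mem_tr ρ h
    rw [map_one]
    exact hw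
  · intro h
    have := mem_tr ρ (k := 1) h
    rwa [map_one] at this

theorem tr_mul (k l : K) (W : Submodule (ZMod p) V) : tr ρ (k * l) W = tr ρ k (tr ρ l W) := by
  ext v
  constructor
  · intro h
    obtain ⟨w, hw, rfl⟩ := exists_of_mem_tr ρ h
    rw [map_mul]
    exact mem_tr ρ (mem_tr ρ hw)
  · intro h
    obtain ⟨w, hw, rfl⟩ := exists_of_mem_tr ρ h
    obtain ⟨u, hu, rfl⟩ := exists_of_mem_tr ρ hw
    have := mem_tr ρ (k := k * l) hu
    rwa [map_mul] at this

theorem tr_inv_tr (k : K) (W : Submodule (ZMod p) V) : tr ρ k⁻¹ (tr ρ k W) = W := by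
  rw [← tr_mul, inv_mul_cancel, tr_one]

theorem tr_tr_inv (k : K) (W : Submodule (ZMod p) V) : tr ρ k (tr ρ k⁻¹ W) = W := by
  rw [← tr_mul, mul_inv_cancel, tr_one]

/-- systems of imprimitivity -/
structure Sys (S : Set (Submodule (ZMod p) V)) : Prop where
  bot : ⊥ ∉ S
  indep : ∀ W ∈ S, Disjoint W (sSup (S \ {W}))
  top : sSup S = ⊤
  inv : ∀ k, ∀ W ∈ S, tr ρ k W ∈ S

variable {ρ}

/-- irreducibility -/
def Irr (ρ : K →* (V ≃ₗ[ZMod p] V)) : Prop :=
  ∀ W : Submodule (ZMod p) V, (∀ k, ∀ v ∈ W, ρ k v ∈ W) → W = ⊥ ∨ W = ⊤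

theorem Irr.iSup_tr (hirr : Irr ρ) {W : Submodule (ZMod p) V} (hW : W ≠ ⊥) : ⨆ k, tr ρ k W = ⊤ := by
  rcases hirr (⨆ k, tr ρ k W) (fun k v hv => by
    have h1 : tr ρ k (⨆ l, tr ρ l W) ≤ ⨆ l, tr ρ l W := by
      rw [OrderIso.map_iSup]
      refine iSup_le fun l => ?_
      rw [← tr_mul]
      exact le_iSup (fun l => tr ρ l W) (k * l)
    exact (tr_le_iff ρ).1 h1 v hv) with h | h
  · exfalso
    apply hW
    rw [eq_bot_iff, ← h]
    have h2 := le_iSup (fun l => tr ρ l W) 1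
    simpa only [tr_one] using h2
  · exact h

theorem Sys.trans {S : Set (Submodule (ZMod p) V)} (hS : Sys ρ S) (hirr : Irr ρ) {W₀ W : Submodule (ZMod p) V}
    (h₀ : W₀ ∈ S) (h : W ∈ S) : ∃ k, tr ρ k W₀ = W := by
  by_contra hne
  push Not at hne
  have h0 : W₀ ≠ ⊥ := fun h1 => hS.bot (h1 ▸ h₀)
  have h1 := hirr.iSup_tr h0
  have h2 : ⨆ k, tr ρ k W₀ ≤ sSup (S \ {W}) := iSup_le fun k => le_sSup ⟨hS.inv k _ h₀, hne k⟩
  rw [h1, top_le_iff] at h2
  have h3 := hS.indep W h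
  rw [h2, disjoint_top] at h3
  exact hS.bot (h3 ▸ h)

/-- the system with one member -/
theorem sys_top (hV : ∃ v : V, v ≠ 0) : Sys ρ {(⊤ : Submodule (ZMod p) V)} where
  bot h := by
    obtain ⟨v, hv⟩ := hV
    have h1 : (⊥ : Submodule (ZMod p) V) = ⊤ := h
    have h2 : v ∈ (⊤ : Submodule (ZMod p) V) := trivial
    rw [← h1] at h2
    exact hv ((Submodule.mem_bot _).1 h2)
  indep W hW := by
    have h1 : W = ⊤ := hW
    subst h1
    rw [Set.sdiff_self, sSup_empty]
    exact disjoint_bot_right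
  top := sSup_singleton
  inv k W hW := by
    have h1 : W = ⊤ := hW
    subst h1
    exact OrderIso.map_top _

/-- two members with a common nonzero submodule are equal -/
theorem Sys.eq_of_le {S : Set (Submodule (ZMod p) V)} (hS : Sys ρ S) {W W' U : Submodule (ZMod p) V}
    (hW : W ∈ S) (hW' : W' ∈ S) (hU : U ≠ ⊥) (h : U ≤ W) (h' : U ≤ W') : W = W' := by
  by_contra hne
  have h1 : W' ≤ sSup (S \ {W}) := le_sSup ⟨hW', fun h2 => hne h2.symm⟩
  exact hU (le_bot_iff.1 (hS.indep W hW h (h'.trans h1)))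

/-! ### the primitive group induced on a member -/

/-- the stabiliser of a submodule -/
def stab (ρ : K →* (V ≃ₗ[ZMod p] V)) (W : Submodule (ZMod p) V) : Subgroup K where
  carrier := {k | tr ρ k W = W}
  one_mem' := tr_one ρ W
  mul_mem' {a b} ha hb := by
    have ha' : tr ρ a W = W := ha
    have hb' : tr ρ b W = W := hb
    show tr ρ (a * b) W = W
    rw [tr_mul, hb', ha']
  inv_mem' {a} ha := by
    have ha' : tr ρ a W = W := ha
    show tr ρ a⁻¹ W = W
    conv_lhs => rw [← ha']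
    exact tr_inv_tr ρ a W

theorem mem_stab {W : Submodule (ZMod p) V} {k : K} : k ∈ stab ρ W ↔ tr ρ k W = W := Iff.rfl

/-- the restriction to an invariant submodule -/
def res (ρ : K →* (V ≃ₗ[ZMod p] V)) (W : Submodule (ZMod p) V) : stab ρ W →* (W ≃ₗ[ZMod p] W) where
  toFun k := (ρ k).ofSubmodules W W k.2
  map_one' := by
    ext w
    show ρ 1 w = w
    rw [map_one]
    rfl
  map_mul' a b := by
    ext w
    show ρ (a * b) w = ρ a (ρ b w)
    rw [map_mul]
    rfl

theorem res_apply {W : Submodule (ZMod p) V} (k : stab ρ W) (w : W) : ((res ρ W k w : W) : V) = ρ k w := rfl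

theorem eq_bot_of_map {W : Submodule (ZMod p) V} {U : Submodule (ZMod p) W} (h : U.map W.subtype = ⊥) : U = ⊥ := by
  rw [eq_bot_iff]
  intro u hu
  have h1 : (u : V) ∈ U.map W.subtype := ⟨u, hu, rfl⟩
  rw [h] at h1
  exact (Submodule.mem_bot _).2 (Subtype.ext ((Submodule.mem_bot _).1 h1))

theorem modular {W C U : Submodule (ZMod p) V} (hC : Disjoint W C) (hU : U ≤ W) : W ⊓ (U ⊔ C) = U := by
  rw [inf_comm, sup_inf_assoc_of_le C hU, inf_comm C W, hC.eq_bot, sup_bot_eq]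

theorem primLin [Finite V] {S : Set (Submodule (ZMod p) V)} (hS : Sys ρ S) (hirr : Irr ρ)
    (hmax : ∀ S' : Set (Submodule (ZMod p) V), Sys ρ S' → S'.ncard ≤ S.ncard) {W₀ : Submodule (ZMod p) V}
    (h₀ : W₀ ∈ S) : PrimLin (res ρ W₀).range := by
  classical
  have hfin : Finite (Submodule (ZMod p) V) :=
    Finite.of_injective (fun W : Submodule (ZMod p) V => (W : Set V)) SetLike.coe_injective
  have hW0 : W₀ ≠ ⊥ := fun h1 => hS.bot (h1 ▸ h₀)
  have hC := hS.indep W₀ h₀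
  have hinj : Function.Injective W₀.subtype := Subtype.val_injective
  refine ⟨?_, ?_, ?_⟩
  · obtain ⟨v, hv, hv0⟩ := Submodule.exists_mem_ne_zero_of_ne_bot hW0
    exact ⟨⟨v, hv⟩, fun h => hv0 (congrArg Subtype.val h)⟩
  · intro U hU
    by_cases hU0 : U = ⊥
    · exact Or.inl hU0
    refine Or.inr ?_
    have hU' : U.map W₀.subtype ≠ ⊥ := by
      intro h
      exact hU0 (eq_bot_of_map h)
    have h1 := hirr.iSup_tr hU'
    have h2 : ⨆ k, tr ρ k (U.map W₀.subtype) ≤ U.map W₀.subtype ⊔ sSup (S \ {W₀}) := by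
      refine iSup_le fun k => ?_
      by_cases hk : tr ρ k W₀ = W₀
      · refine le_sup_of_le_left ?_
        rw [tr_le_iff]
        rintro _ ⟨w, hw, rfl⟩
        exact ⟨res ρ W₀ ⟨k, hk⟩ w, hU _ ⟨⟨k, hk⟩, rfl⟩ w hw, rfl⟩
      · refine le_sup_of_le_right (le_trans ((tr ρ k).monotone (Submodule.map_subtype_le _ _)) (le_sSup ?_))
        exact ⟨hS.inv k _ h₀, hk⟩
    rw [h1, top_le_iff] at h2
    have h3 := modular hC (Submodule.map_subtype_le W₀ U)
    rw [h2, inf_top_eq] at h3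
    rw [eq_top_iff]
    intro w _
    have h4 : (w : V) ∈ U.map W₀.subtype := by rw [← h3]; exact w.2
    obtain ⟨u, hu, hu2⟩ := h4
    have h5 : u = w := Subtype.ext hu2
    rwa [← h5]
  · intro ι _ U hU htop hbot hperm
    let U' : ι → Submodule (ZMod p) V := fun i => (U i).map W₀.subtype
    have hle : ∀ i, U' i ≤ W₀ := fun i => Submodule.map_subtype_le _ _
    have hne : ∀ i, U' i ≠ ⊥ := fun i h => hbot i (eq_bot_of_map h)
    have hsup : ⨆ i, U' i = W₀ := by
      show ⨆ i, (U i).map W₀.subtype = W₀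
      rw [← Submodule.map_iSup, htop, Submodule.map_top, Submodule.range_subtype]
    have hdis : ∀ i, Disjoint (U' i) (⨆ j, ⨆ (_ : j ≠ i), U' j) := by
      intro i
      have h1 := Submodule.disjoint_map hinj (hU i)
      have h2 : (⨆ j, ⨆ (_ : j ≠ i), U j).map W₀.subtype = ⨆ j, ⨆ (_ : j ≠ i), U' j := by
        rw [Submodule.map_iSup]
        exact iSup_congr fun j => Submodule.map_iSup _ _
      rwa [h2] at h1
    have hperm' : ∀ k, tr ρ k W₀ = W₀ → ∀ i, ∃ j, tr ρ k (U' i) = U' j := by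
      intro k hk i
      obtain ⟨j, hj⟩ := hperm (res ρ W₀ ⟨k, hk⟩) ⟨_, rfl⟩ i
      refine ⟨j, le_antisymm ?_ ?_⟩
      · rw [tr_le_iff]
        rintro _ ⟨w, hw, rfl⟩
        exact ⟨res ρ W₀ ⟨k, hk⟩ w, (hj w).1 hw, rfl⟩
      · rintro _ ⟨w, hw, rfl⟩
        obtain ⟨u, hu⟩ := (res ρ W₀ ⟨k, hk⟩).surjective w
        have h1 : u ∈ U i := by
          rw [hj u]
          rw [hu]
          exact hw
        have h2 : W₀.subtype w = ρ k (u : V) := by
          rw [← hu]
          rfl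
        rw [h2]
        exact mem_tr ρ ⟨u, h1, rfl⟩
    let S' : Set (Submodule (ZMod p) V) := {M | ∃ k i, tr ρ k (U' i) = M}
    have hU'S : ∀ i, U' i ∈ S' := fun i => ⟨1, i, tr_one ρ _⟩
    -- the base case of the independence
    have hind : ∀ i, Disjoint (U' i) (sSup (S' \ {U' i})) := by
      intro i
      have h1 : sSup (S' \ {U' i}) ≤ (⨆ j, ⨆ (_ : j ≠ i), U' j) ⊔ sSup (S \ {W₀}) := by
        refine sSup_le ?_
        rintro M ⟨⟨k, j, rfl⟩, hM⟩
        by_cases hk : tr ρ k W₀ = W₀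
        · obtain ⟨j', hj'⟩ := hperm' k hk j
          refine le_sup_of_le_left ?_
          rw [hj'] at hM ⊢
          have h2 : j' ≠ i := by
            rintro rfl
            exact hM rfl
          exact le_iSup_of_le j' (le_iSup_of_le h2 le_rfl)
        · exact le_sup_of_le_right (le_trans ((tr ρ k).monotone (hle j)) (le_sSup ⟨hS.inv k _ h₀, hk⟩))
      have hA : (⨆ j, ⨆ (_ : j ≠ i), U' j) ≤ W₀ := iSup_le fun j => iSup_le fun _ => hle j
      rw [disjoint_iff_inf_le]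
      have h2 : U' i ⊓ sSup (S' \ {U' i}) ≤ U' i ⊓ (⨆ j, ⨆ (_ : j ≠ i), U' j) := by
        refine le_inf inf_le_left ?_
        rw [← modular hC hA]
        exact le_inf (inf_le_left.trans (hle i)) (inf_le_right.trans h1)
      exact h2.trans (hdis i).le_bot
    have hS' : Sys ρ S' := by
      refine ⟨?_, ?_, ?_, ?_⟩
      · rintro ⟨k, i, h⟩
        apply hne i
        rw [← tr_inv_tr ρ k (U' i), h, OrderIso.map_bot]
      · rintro _ ⟨k, i, rfl⟩
        have h1 := (hind i).map_orderIso (tr ρ k)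
        refine h1.mono_right (sSup_le ?_)
        rintro M ⟨⟨l, j, rfl⟩, hM⟩
        rw [OrderIso.map_sSup]
        have h2 : tr ρ k⁻¹ (tr ρ l (U' j)) ∈ S' \ {U' i} := by
          refine ⟨⟨k⁻¹ * l, j, tr_mul ρ _ _ _⟩, fun h3 => hM ?_⟩
          have h4 : tr ρ k⁻¹ (tr ρ l (U' j)) = U' i := h3
          show tr ρ l (U' j) = tr ρ k (U' i)
          rw [← h4, tr_tr_inv]
        refine le_iSup_of_le _ (le_iSup_of_le h2 ?_)
        rw [tr_tr_inv]
      · rw [eq_top_iff, ← hirr.iSup_tr hW0]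
        refine iSup_le fun k => ?_
        rw [← hsup, OrderIso.map_iSup]
        exact iSup_le fun i => le_sSup ⟨k, i, rfl⟩
      · rintro k _ ⟨l, i, rfl⟩
        exact ⟨k * l, i, tr_mul ρ _ _ _⟩
    refine ⟨fun i₀ i₁ => ?_⟩
    by_contra hi
    -- the injection
    have htr : ∀ W : Submodule (ZMod p) V, ∃ k, W ∈ S → tr ρ k W₀ = W := by
      intro W
      by_cases h : W ∈ S
      · obtain ⟨k, hk⟩ := hS.trans hirr h₀ h
        exact ⟨k, fun _ => hk⟩
      · exact ⟨1, fun h' => (h h').elim⟩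
    choose κ hκ using htr
    let f : Submodule (ZMod p) V → Submodule (ZMod p) V := fun W => tr ρ (κ W) (U' i₀)
    have hfle : ∀ W ∈ S, f W ≤ W := by
      intro W hW
      have h1 : tr ρ (κ W) (U' i₀) ≤ tr ρ (κ W) W₀ := (tr ρ (κ W)).monotone (hle i₀)
      rwa [hκ W hW] at h1
    have hfne : ∀ W, f W ≠ ⊥ := by
      intro W h
      apply hne i₀
      rw [← tr_inv_tr ρ (κ W) (U' i₀)]
      have h' : tr ρ (κ W) (U' i₀) = ⊥ := h
      rw [h', OrderIso.map_bot]
    have hfinj : Set.InjOn f S := by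
      intro W hW W' hW' h
      exact hS.eq_of_le hW hW' (hfne W) (hfle W hW) (h ▸ hfle W' hW')
    obtain ⟨j, hj⟩ := hperm' (κ W₀) (hκ W₀ h₀) i₀
    obtain ⟨i, hij⟩ : ∃ i, i ≠ j := by
      by_cases h : i₀ = j
      · exact ⟨i₁, fun h' => hi (h.trans h'.symm)⟩
      · exact ⟨i₀, h⟩
    have hlt : f '' S ⊂ S' := by
      refine ⟨?_, fun h => ?_⟩
      · rintro _ ⟨W, -, rfl⟩
        exact ⟨κ W, i₀, rfl⟩
      · obtain ⟨W, hW, hWi⟩ := h (hU'S i)
        have h1 : W = W₀ := hS.eq_of_le hW h₀ (hne i) (hWi ▸ hfle W hW) (hle i)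
        rw [h1] at hWi
        have h2 : U' j = U' i := hj.symm.trans hWi
        apply hne i
        refine le_bot_iff.1 ((hdis i) le_rfl ?_)
        rw [← h2]
        exact le_iSup_of_le j (le_iSup_of_le (Ne.symm hij) le_rfl)
    have h5 := Set.ncard_lt_ncard hlt (Set.toFinite _)
    rw [hfinj.ncard_image] at h5
    have h6 := hmax S' hS'
    omega

/-! ### components -/

theorem Sys.exists_sum {S : Set (Submodule (ZMod p) V)} [Fintype S] (hS : Sys ρ S) (v : V) :
    ∃ x : S → V, (∀ W, x W ∈ W.1) ∧ ∑ W, x W = v := by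
  classical
  let T : Submodule (ZMod p) V :=
    { carrier := {v | ∃ x : S → V, (∀ W, x W ∈ W.1) ∧ ∑ W, x W = v}
      zero_mem' := ⟨0, fun W => W.1.zero_mem, by simp⟩
      add_mem' := by
        rintro _ _ ⟨x, hx, rfl⟩ ⟨y, hy, rfl⟩
        exact ⟨x + y, fun W => W.1.add_mem (hx W) (hy W), by simp [Finset.sum_add_distrib]⟩
      smul_mem' := by
        rintro c _ ⟨x, hx, rfl⟩
        exact ⟨c • x, fun W => W.1.smul_mem c (hx W), by simp [Finset.smul_sum]⟩ }
  have h1 : sSup S ≤ T := by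
    refine sSup_le fun W hW w hw => ?_
    refine ⟨Pi.single ⟨W, hW⟩ w, fun W' => ?_, ?_⟩
    · by_cases h : W' = ⟨W, hW⟩
      · subst h
        rw [Pi.single_eq_same]
        exact hw
      · rw [Pi.single_eq_of_ne h]
        exact W'.1.zero_mem
    · rw [Finset.sum_pi_single']
      simp
  rw [hS.top] at h1
  exact h1 trivial

theorem Sys.sum_unique {S : Set (Submodule (ZMod p) V)} [Fintype S] (hS : Sys ρ S) {x y : S → V}
    (hx : ∀ W, x W ∈ W.1) (hy : ∀ W, y W ∈ W.1) (h : ∑ W, x W = ∑ W, y W) : x = y := by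
  classical
  funext W
  have h1 : ∑ W, (x W - y W) = 0 := by rw [Finset.sum_sub_distrib, h, sub_self]
  rw [← Finset.add_sum_erase _ _ (Finset.mem_univ W)] at h1
  have h2 : x W - y W = - ∑ W' ∈ Finset.univ.erase W, (x W' - y W') := eq_neg_of_add_eq_zero_left h1
  have h3 : x W - y W ∈ sSup (S \ {W.1}) := by
    rw [h2]
    refine Submodule.neg_mem _ (Submodule.sum_mem _ fun W' hW' => ?_)
    have h4 : W'.1 ≤ sSup (S \ {W.1}) := le_sSup ⟨W'.2, fun h5 => (Finset.mem_erase.1 hW').1 (Subtype.ext h5)⟩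
    exact h4 (W'.1.sub_mem (hx W') (hy W'))
  have h4 := (Submodule.disjoint_def.1 (hS.indep W.1 W.2)) _ (W.1.sub_mem (hx W) (hy W)) h3
  exact sub_eq_zero.1 h4

end

end Cfsg.Agent.H505.B57
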